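import Cfsg.Agent.H10.StemCriteria

/-!
An elementary abelian Sylow 2-subgroup of order 8 with an element of order 7 acting on it: two
does not divide the kernel of a stem extension.
-/

set_option autoImplicit false

open scoped commutatorElement

namespace Cfsg.Agent.H10

variable {Γ : Type*} [Group Γ] {G : Type*} [Group G]

theorem commEl_mul_left {u w v : Γ} (h : ∀ g, g * ⁅w, v⁆ = ⁅w, v⁆ * g) :
    ⁅u * w, v⁆ = ⁅u, v⁆ * ⁅w, v⁆ := by
  rw [show ⁅u * w, v⁆ = u * ⁅w, v⁆ * u⁻¹ * ⁅u, v⁆ by simp only [commutatorElement_def]; group,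
    h u, mul_inv_cancel_right]
  exact (h _).symm

theorem commEl_mul_right {u w v : Γ} (h : ∀ g, g * ⁅u, w⁆ = ⁅u, w⁆ * g) :
    ⁅u, v * w⁆ = ⁅u, v⁆ * ⁅u, w⁆ := by
  rw [show ⁅u, v * w⁆ = ⁅u, v⁆ * (v * ⁅u, w⁆ * v⁻¹) by simp only [commutatorElement_def]; group,
    h v, mul_inv_cancel_right]

theorem commEl_central_left {u k v : Γ} (h : ∀ g, g * k = k * g) : ⁅u * k, v⁆ = ⁅u, v⁆ := by
  have hk : ⁅k, v⁆ = 1 := commutatorElement_eq_one_iff_mul_comm.2 (h v).symm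
  rw [commEl_mul_left (fun g => by rw [hk]; simp), hk, mul_one]

theorem commEl_central_right {u k v : Γ} (h : ∀ g, g * k = k * g) : ⁅u, v * k⁆ = ⁅u, v⁆ := by
  have hk : ⁅u, k⁆ = 1 := commutatorElement_eq_one_iff_mul_comm.2 (h u)
  rw [commEl_mul_right (fun g => by rw [hk]; simp), hk, mul_one]

/-- An elementary abelian Sylow 2-subgroup of order 8 whose three generators are moved by an
element as by an element of order 7: two does not divide the kernel. -/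
theorem not_two_dvd_ker_of_eight [Finite Γ] [Finite G] [Fact (Nat.Prime 2)] {σ : Γ →* G}
    (hσ : Cfsg.IsStemExtension σ) {x y z n : G}
    (hQ : ∃ Q : Sylow 2 G, (Q : Subgroup G) = Subgroup.closure {x, y, z})
    (hxy : x * y = y * x) (hxz : x * z = z * x) (hyz : y * z = z * y) (hy2 : y * y = 1)
    (hz2 : z * z = 1) (hnx : n⁻¹ * x * n = x * z) (hny : n⁻¹ * y * n = x * y)
    (hnz : n⁻¹ * z * n = y) : ¬ 2 ∣ Nat.card σ.ker := by
  obtain ⟨Q, hQ⟩ := hQ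
  obtain ⟨a, rfl⟩ := hσ.1 x
  obtain ⟨b, rfl⟩ := hσ.1 y
  obtain ⟨d, rfl⟩ := hσ.1 z
  obtain ⟨m, rfl⟩ := hσ.1 n
  obtain ⟨P₀⟩ : Nonempty (Sylow 2 Γ) := Sylow.nonempty
  obtain ⟨g, hg⟩ := MulAction.exists_smul_eq G (P₀.mapSurjective hσ.1) Q
  obtain ⟨γ, rfl⟩ := hσ.1 g
  let P : Sylow 2 Γ := γ • P₀
  have hPQ : (P : Subgroup Γ).map σ = Subgroup.closure {σ a, σ b, σ d} := by
    rw [← hQ, ← hg]
    ext v
    simp only [P, Sylow.coe_subgroup_smul, Sylow.coe_mapSurjective, Subgroup.mem_map,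
      Subgroup.mem_smul_pointwise_iff_exists, MulAut.smul_def, MulAut.conj_apply]
    constructor
    · rintro ⟨w, ⟨u, hu, rfl⟩, rfl⟩
      exact ⟨σ u, ⟨u, hu, rfl⟩, by simp⟩
    · rintro ⟨w, ⟨u, hu, rfl⟩, rfl⟩
      exact ⟨γ * u * γ⁻¹, ⟨u, hu, rfl⟩, by simp⟩
  have hcen : ∀ {k : Γ}, σ k = 1 → ∀ w : Γ, w * k = k * w :=
    fun hk w => Subgroup.mem_center_iff.1 (hσ.2.1 (MonoidHom.mem_ker.2 hk)) w
  have hσc : ∀ {u v : Γ}, σ u * σ v = σ v * σ u → σ ⁅u, v⁆ = 1 := fun h => by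
    rw [map_commutatorElement, commutatorElement_eq_one_iff_mul_comm]; exact h
  have cab := hcen (hσc hxy)
  have cad := hcen (hσc hxz)
  have cbd := hcen (hσc hyz)
  have cba := hcen (hσc hxy.symm)
  have cda := hcen (hσc hxz.symm)
  have cdb := hcen (hσc hyz.symm)
  -- the action, up to central factors
  have lift : ∀ {u v : Γ}, (σ m)⁻¹ * σ u * σ m = σ v → ∃ k, σ k = 1 ∧ m⁻¹ * u * m = v * k :=
    fun {u v} h => ⟨v⁻¹ * (m⁻¹ * u * m),
      by rw [map_mul, map_mul, map_mul, map_inv, map_inv, h, inv_mul_cancel],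
      by group⟩
  obtain ⟨k₁, hk₁, e₁⟩ := lift (v := a * d) (hnx.trans (map_mul σ a d).symm)
  obtain ⟨k₂, hk₂, e₂⟩ := lift (v := a * b) (hny.trans (map_mul σ a b).symm)
  obtain ⟨k₃, hk₃, e₃⟩ := lift (v := b) hnz
  have inv : ∀ {u v : Γ}, σ ⁅u, v⁆ = 1 → ⁅m⁻¹ * u * m, m⁻¹ * v * m⁆ = ⁅u, v⁆ := fun {u v} h => by
    rw [show ⁅m⁻¹ * u * m, m⁻¹ * v * m⁆ = m⁻¹ * ⁅u, v⁆ * m by
      simp only [commutatorElement_def]; group, hcen h m⁻¹, inv_mul_cancel_right]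
  have sq : ∀ {u v : Γ}, σ u * σ u = 1 → σ ⁅u, v⁆ = 1 → ⁅u, v⁆ * ⁅u, v⁆ = 1 := fun {u v} h h' => by
    rw [← commEl_mul_left (hcen h'), commutatorElement_eq_one_iff_mul_comm]
    exact (hcen (k := u * u) (by rw [map_mul, h]) v).symm
  have hswap : ∀ {u v : Γ}, ⁅v, u⁆ = ⁅u, v⁆⁻¹ := fun {u v} => by
    simp only [commutatorElement_def]; group
  -- the three relations
  have r1 : ⁅a, b⁆ = ⁅a, b⁆ * (⁅a, d⁆⁻¹ * ⁅b, d⁆⁻¹) := by
    conv_lhs => rw [← inv (hσc hxy), e₁, e₂, commEl_central_left (hcen hk₁),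
      commEl_central_right (hcen hk₂)]
    have hd : ⁅d, a * b⁆ = ⁅d, a⁆ * ⁅d, b⁆ := commEl_mul_right cdb
    have ha : ⁅a, a * b⁆ = ⁅a, b⁆ := by
      rw [commEl_mul_right cab, commutatorElement_self, one_mul]
    have hdc : ∀ g, g * ⁅d, a * b⁆ = ⁅d, a * b⁆ * g := fun g => by
      rw [hd, ← mul_assoc, cda g, mul_assoc, cdb g, ← mul_assoc]
    rw [commEl_mul_left hdc, ha, hd, hswap (u := a) (v := d), hswap (u := b) (v := d)]
  have r2 : ⁅a, d⁆ = ⁅a, b⁆ * ⁅b, d⁆⁻¹ := by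
    conv_lhs => rw [← inv (hσc hxz), e₁, e₃, commEl_central_left (hcen hk₁),
      commEl_central_right (hcen hk₃)]
    rw [commEl_mul_left cdb, hswap (u := b) (v := d)]
  have r3 : ⁅b, d⁆ = ⁅a, b⁆ := by
    conv_lhs => rw [← inv (hσc hyz), e₂, e₃, commEl_central_left (hcen hk₂),
      commEl_central_right (hcen hk₃)]
    rw [commEl_mul_left (fun g => by simp), commutatorElement_self, mul_one]
  have sbd : ⁅b, d⁆⁻¹ = ⁅b, d⁆ := inv_eq_of_mul_eq_one_right (sq hy2 (hσc hyz))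
  have hdb' : ⁅d, a⁆ = ⁅a, d⁆⁻¹ := hswap
  have sad : ⁅a, d⁆⁻¹ = ⁅a, d⁆ := by
    rw [← hdb']
    have := inv_eq_of_mul_eq_one_right (sq hz2 (hσc hxz.symm))
    exact this.symm.trans (by rw [hdb', inv_inv])
  have hab1 : ⁅a, b⁆ = 1 := by
    have h13 : ⁅a, d⁆ * ⁅b, d⁆ = 1 := by
      have := r1
      rw [sad, sbd] at this
      exact mul_eq_left.1 this.symm
    rw [r2, sbd, r3, mul_assoc, ← r3] at h13
    have h := sq hy2 (hσc hyz)
    rw [h, mul_one] at h13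
    exact r3.symm.trans h13
  have hbd1 : ⁅b, d⁆ = 1 := r3.trans hab1
  have had1 : ⁅a, d⁆ = 1 := by rw [r2, hab1, hbd1]; simp
  have comm : ∀ {u v : Γ}, ⁅u, v⁆ = 1 → u * v = v * u :=
    fun h => commutatorElement_eq_one_iff_mul_comm.1 h
  have hcomm : ∀ u ∈ ({a, b, d} : Set Γ) ∪ σ.ker, ∀ v ∈ ({a, b, d} : Set Γ) ∪ σ.ker,
      u * v = v * u := by
    rintro u ((rfl | rfl | rfl) | hu) v ((rfl | rfl | rfl) | hv) <;>
      first
      | rfl
      | exact comm hab1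
      | exact (comm hab1).symm
      | exact comm had1
      | exact (comm had1).symm
      | exact comm hbd1
      | exact (comm hbd1).symm
      | exact hcen hv _
      | exact (hcen hu _).symm
  refine Cfsg.Agent.H64.not_dvd_card_ker_of_sylow hσ P ?_
  have hle : (P : Subgroup Γ) ≤ Subgroup.closure (({a, b, d} : Set Γ) ∪ σ.ker) := by
    refine le_closure_union_ker (le_of_eq ?_)
    rw [hPQ, Set.image_insert_eq, Set.image_pair]
  have : IsMulCommutative (Subgroup.closure (({a, b, d} : Set Γ) ∪ σ.ker)) :=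
    Subgroup.isMulCommutative_closure hcomm
  rw [(Subgroup.commutator_eq_bot_iff_le_centralizer).2 (hle.trans
    ((Subgroup.le_centralizer _).trans (Subgroup.centralizer_le hle))), inf_bot_eq]

end Cfsg.Agent.H10
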